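import Cfsg.Agent.Lib.Comp.CLow
import Cfsg.Agent.Lib.Comp.CTrans

/-! Isomorphisms from presentations; extremely primitive actions. -/

set_option autoImplicit false
set_option linter.unusedVariables false

namespace CA.GIso
open Equiv MulAction CA.CNet CA.CWord CA.CLevel CA.CSimple CA.CPoint CA.CLow CA.CTodd

theorem equiv_le {rels gens : List Word} {N : ℕ} (hB : Bound.{0} rels gens N) {A M : Type} [Group A] [Group M]
    {a : ℕ → A} {q : ℕ → M} (ha : ∀ r ∈ rels, ev a r = 1) (hq : ∀ r ∈ rels, ev q r = 1)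
    (hN : N ≤ Nat.card (grp a gens)) (hs : IsSimpleGroup (grp a gens)) {w : Word} (hw : w ∈ gens) (h1 : ev q w ≠ 1)
    {K : Subgroup M} [Finite K] (hK : ∀ i, q i ∈ K) (hc : Nat.card K ≤ N) : Nonempty (grp a gens ≃* K) := by
  obtain ⟨ψ, -, h3⟩ := CTrans.exists_hom_of_bound hB ha hq hN
  have hi : Function.Injective ψ := by
    rw [← MonoidHom.ker_eq_bot_iff]
    refine (hs.eq_bot_or_eq_top_of_normal _ inferInstance).resolve_right fun e => h1 ?_
    obtain ⟨x, hx⟩ : ev q w ∈ ψ.range := h3 ▸ mem_grp q hw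
    rw [← hx]; exact (show x ∈ ψ.ker from e ▸ Subgroup.mem_top x)
  have e := MonoidHom.ofInjective hi
  exact ⟨e.trans (MulEquiv.subgroupCongr (Subgroup.eq_of_le_of_card_ge
    (h3.le.trans ((grp_le_iff _).2 fun w _ => ev_mem hK w)) (hc.trans (hN.trans (Nat.card_congr e.toEquiv).le))))⟩

variable {C : Ctx} {f : ℕ → ℕ → ℕ}

/-- the relators hold for the words `ws` in `gs` -/
theorem equiv_words (hC : C.ok = true) (hf : Good C f) {rels gens : List Word} {N : ℕ} (hB : Bound.{0} rels gens N)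
    {A : Type} [Group A] {a : ℕ → A} (ha : ∀ r ∈ rels, ev a r = 1) (hN : N ≤ Nat.card (grp a gens))
    (hs : IsSimpleGroup (grp a gens)) (hw : [0] ∈ gens) {gs : List Word} {G : Subgroup (Perm (Fin C.n))} {B : List ℕ}
    (hB' : IsBase G B) (hG : C.grp gs ≤ G) (hc : Nat.card (C.grp gs) ≤ N) (ws : List Word) (p : ℕ)
    (h : band (lall rels fun r => eqQ f B (subst gs (subst ws r), []))
      (band (Nat.blt p C.n) (not (C.maps (subst gs (nth ws [] 0)) p p))) = true) :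
    Nonempty (grp a gens ≃* C.grp gs) := by
  obtain ⟨h1, h2⟩ := band_iff.1 h
  obtain ⟨h2, h3⟩ := band_iff.1 h2
  refine equiv_le hB (q := fun i => C.ev (subst gs (nth ws [] i))) ha (fun r hr => ?_) hN hs hw ?_
    (fun i => subst_mem_grp _ _ _) hc
  · have := eq_of_eqQ hf hB' (hG (subst_mem_grp _ _ _)) (one_mem _) (lall_iff.1 h1 r hr)
    rw [Ctx.ev, ev_subst, ev_subst] at this
    simpa only [Ctx.ev, ev_subst, ev_nil] using this
  · exact (ev_gen _ 0).trans_ne (Ctx.ne_one_of_moves hC (by simpa [Nat.blt_eq] using h2) (by simpa using h3))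

/-- `A ⊓ S` is a maximal subgroup of `A` -/
def Mx {G : Type*} [Group G] (A S : Subgroup G) : Prop :=
  ¬ A ≤ S ∧ ∀ M, A ⊓ S ≤ M → M ≤ A → M = A ⊓ S ∨ M = A

theorem Mx.coatom {Γ G : Type*} [Group Γ] [Group G] (ρ : Γ →* G) (hi : Function.Injective ρ) {S : Subgroup G}
    (h : Mx ρ.range S) : IsCoatom (S.comap ρ) := by
  refine ⟨fun e => h.1 (by rintro _ ⟨x, rfl⟩; exact e.ge (Subgroup.mem_top x)), fun M hM => ?_⟩
  rcases h.2 (M.map ρ) (by rintro _ ⟨⟨x, rfl⟩, hx⟩; exact ⟨x, hM.le hx, rfl⟩) (Subgroup.map_le_range _ _) with e | e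
  · exact absurd (fun x hx => (e.le ⟨x, hx, rfl⟩).2) hM.not_ge
  · refine eq_top_iff.2 fun x _ => ?_
    obtain ⟨y, hy, e'⟩ := e.ge ⟨x, rfl⟩
    exact hi e' ▸ hy

theorem xprim {Γ Ω : Type*} [Group Γ] {A H : Subgroup (Perm Ω)} (e : A ≃* Γ) {ω : Ω} (hH : A ⊓ stabilizer _ ω = H)
    (h1 : Mx A (stabilizer _ ω)) (h2 : ∀ δ, δ ≠ ω → ∃ h ∈ H, ∃ δ', h δ' = δ ∧ Mx H (stabilizer _ δ')) :
    ∃ K : Subgroup Γ, IsCoatom K ∧ Nonempty (K ≃* H) ∧
      ∀ x, x ∉ K → IsCoatom ((K ⊓ K.map (MulAut.conj x).toMonoidHom).subgroupOf K) := by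
  let ρ : Γ →* Perm Ω := A.subtype.comp e.symm.toMonoidHom
  have hi : Function.Injective ρ := A.subtype_injective.comp e.symm.injective
  have hA : ρ.range = A := by
    rw [MonoidHom.range_comp, MonoidHom.range_eq_top.2 e.symm.surjective, ← MonoidHom.range_eq_map, A.range_subtype]
  let K := (stabilizer _ ω).comap ρ
  let σ := ρ.comp K.subtype
  have hi' : Function.Injective σ := hi.comp K.subtype_injective
  have hK : σ.range = H := by
    rw [MonoidHom.range_comp, K.range_subtype, Subgroup.map_comap_eq, hA, hH]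
  refine ⟨K, Mx.coatom ρ hi (hA ▸ h1), ⟨(MonoidHom.ofInjective hi').trans (MulEquiv.subgroupCongr hK)⟩, fun x hx => ?_⟩
  obtain ⟨h, hh, δ, e1, h3⟩ := h2 (ρ x ω) hx
  obtain ⟨k, rfl⟩ := hK.ge hh
  convert ((MulAut.conj k).mapSubgroup.isCoatom_iff _).2 (Mx.coatom σ hi' (hK ▸ h3))
  ext g
  rw [Subgroup.inf_subgroupOf_left, Subgroup.mem_subgroupOf, Subgroup.mem_map_equiv]
  refine Iff.trans ?_ (Subgroup.mem_map_equiv (f := MulAut.conj k)).symm
  show ρ (x⁻¹ * g * x) ω = ω ↔ σ (k⁻¹ * g * k) δ = δ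
  simp only [map_mul, map_inv, Perm.mul_apply, Perm.inv_eq_iff_eq, e1]
  rfl

noncomputable def mxOK (C : Ctx) (f : ℕ → ℕ → ℕ) (gs hs : List Word) (ω m U j : ℕ) (sc : List ℕ) (l : List Sub) : Bool :=
  band (band (lall hs fun w => mapsP C f w ω ω) (Nat.ble m (cnt C.n (C.clo gs sc (bit ω)))))
    (band (band (C.inv gs U) (band (tb U ω) (not (C.maps (nth gs [] j) ω ω))))
      (band (sub U (subU C hs ω l)) (lall l (subOK C gs hs ω U))))

theorem mx (hC : C.ok = true) (hf : Good C f) {gs hs : List Word} (ω : Fin C.n) {m U j : ℕ} {sc : List ℕ} {l : List Sub}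
    (h : mxOK C f gs hs ω m U j sc l = true) (hle : C.grp hs ≤ C.grp gs)
    (hc : Nat.card (C.grp gs) ≤ m * Nat.card (C.grp hs)) :
    C.grp gs ⊓ stabilizer _ ω = C.grp hs ∧ Mx (C.grp gs) (stabilizer _ ω) := by
  simp only [mxOK, band_iff] at h
  obtain ⟨⟨h1, h2⟩, ⟨h3, h4, h5⟩, h6, h7⟩ := h
  have e := stab_of_card hle (fix_of_mapsP hf h1) ((Nat.le_of_ble_eq_true h2).trans
    (cnt_le_orbit hC fun i hi => clo_bit hC gs sc ω i hi)) hc
  refine ⟨e, fun h8 => ?_, e ▸ maximal_of_stab hC e (fun x hx => ?_) h6 h7⟩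
  · rw [(Ctx.maps_iff hC).2 (congrArg Fin.val (h8 (nth_mem_grp _ gs j)))] at h5
    exact absurd h5 (by decide)
  · rw [Ctx.inv_spec hC h3 hx, ← tb_eq, h4]

end CA.GIso
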