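import Cfsg.Agent.Lib.Comp.GOut
import Cfsg.Agent.Lib.Fi.LocV

/-! Centralisers in permutation groups and their identification by presentations. -/

set_option autoImplicit false
set_option linter.unusedVariables false

namespace CA.GPr
open Cfsg Equiv CA.CNet CA.CWord CA.CLevel CA.H27Pres CA.CSimple CA.CTodd CA.LocV CA.CBack CA.GBack CA.GOut

theorem Pr.equiv {G W : Type} [Group G] [Group W] {rels ws : List Word} {n : ℕ} (h : Pr.{0} W rels ws n) {a : ℕ → G}
    (ha : ∀ r ∈ rels, ev a r = 1) (hn : n ≤ Nat.card (grp a ws)) : Nonempty (grp a ws ≃* W) := by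
  obtain ⟨μ, h1, h2⟩ := h.ex
  obtain ⟨ψ, -, h3⟩ := CTrans.exists_hom_of_bound h.bd ha h1 hn
  obtain ⟨h4, h5⟩ := h.bd G a ha
  exact ⟨MulEquiv.ofBijective ψ ((Nat.bijective_iff_surjective_and_card _).2
    ⟨MonoidHom.range_eq_top.1 (h3.trans h2), (le_antisymm h5 hn).trans h.card.symm⟩)⟩

variable {C : Ctx}

theorem pr_equiv (hC : C.ok = true) {W : Type} [Group W] {rels ws : List Word} {n : ℕ} (h : Pr.{0} W rels ws n)
    {zs : List Word} (hz : lmap (subst zs) ws = zs) (hr : lall rels (fun r => C.eqW (subst zs r) []) = true)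
    (hn : n ≤ Nat.card (C.grp zs)) : Nonempty (C.grp zs ≃* W) := by
  have e : C.grp zs = grp (fun i => ev C.g (nth zs [] i)) ws := by rw [← grp_lmap_subst, hz]
  rw [e] at hn ⊢
  exact Pr.equiv h (fun r hr' => (ev_subst _ _ _).symm.trans (Ctx.eq_of_eqW hC (lall_iff.1 hr r hr'))) hn

theorem cent_eq (hC : C.ok = true) {A : Subgroup (Perm (Fin C.n))} {m : ℕ}
    (hm : ∀ w : Word, (∀ a ∈ w, a < m) → C.ev w ∈ A) {x : Word} (hx : C.ev x ∈ A) {zs : List Word}
    (h1 : lall zs (wlt m) = true) (h2 : lall (comE zs [x]) (eqP C) = true)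
    (h : ∀ g ∈ A, St C [x] [x] g → g ∈ C.grp zs) :
    Subgroup.centralizer {(⟨_, hx⟩ : A)} = (C.grp zs).subgroupOf A ∧ C.grp zs ≤ A := by
  refine ⟨Subgroup.ext fun g => ?_, (grp_le_iff _).2 fun w hw => hm w (wlt_spec (lall_iff.1 h1 w hw))⟩
  rw [Subgroup.mem_centralizer_singleton_iff, Subgroup.mem_subgroupOf, Subtype.ext_iff]
  exact ⟨fun e => h g g.2 (st_one.2 (mul_inv_eq_iff_eq_mul.2 e)),
    fun e => mul_inv_eq_iff_eq_mul.1 (st_one.1 (st_zs hC h2 _ e))⟩

theorem cent_map {G Γ : Type*} [Group G] [Group Γ] (e : G ≃* Γ) (x : G) :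
    Nonempty (Subgroup.centralizer {e x} ≃* Subgroup.centralizer {x}) :=
  ⟨(MulEquiv.subgroupCongr (Subgroup.ext fun g => by
    refine Iff.trans ?_ (Subgroup.mem_map_equiv (f := e)).symm
    rw [Subgroup.mem_centralizer_singleton_iff, Subgroup.mem_centralizer_singleton_iff, ← e.injective.eq_iff]
    simp)).trans (e.subgroupMap (Subgroup.centralizer {x})).symm⟩

theorem cent_equiv (hC : C.ok = true) {A : Subgroup (Perm (Fin C.n))} {Γ : Type*} [Group Γ] (e : A ≃* Γ) {m : ℕ}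
    (hm : ∀ w : Word, (∀ a ∈ w, a < m) → C.ev w ∈ A) {x : Word} {p q : ℕ} {zs : List Word} (hp : p.Prime)
    (h1 : band (band (lall (x :: zs) (wlt m)) (lall (comE zs [x]) (eqP C)))
      (band (C.eqW (wpow x p) []) (band (Nat.blt q C.n) (not (C.maps x q q)))) = true)
    (h : ∀ g ∈ A, St C [x] [x] g → g ∈ C.grp zs) :
    ∃ z : Γ, orderOf z = p ∧ Nonempty (Subgroup.centralizer {z} ≃* C.grp zs) := by
  simp only [band_iff] at h1
  obtain ⟨⟨h1, h2⟩, h3, h4, h5⟩ := h1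
  have hx := hm x (wlt_spec (lall_iff.1 h1 x (by simp)))
  obtain ⟨h6, h7⟩ := cent_eq hC hm hx (lall_iff.2 fun w hw => lall_iff.1 h1 w (by simp [hw])) h2 h
  obtain ⟨f⟩ := cent_map e ⟨_, hx⟩
  have := Fact.mk hp
  refine ⟨e ⟨_, hx⟩, (e.orderOf_eq _).trans (orderOf_eq_prime (Subtype.ext ?_) fun h8 => ?_),
    ⟨f.trans ((MulEquiv.subgroupCongr h6).trans (Subgroup.subgroupOfEquivOfLe h7))⟩⟩
  · exact (ev_wpow _ _ _).symm.trans (Ctx.eq_of_eqW hC h3)
  · exact Ctx.ne_one_of_moves hC (by simpa [Nat.blt_eq] using h4) (by simpa using h5) (congrArg Subtype.val h8)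

end CA.GPr
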